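import Cfsg.Agent.H818.Gen.Defs
import Cfsg.Prelude.Def_CaseTheorems
import Cfsg.Prelude.Def_Classical

/-!
# S2187, TRI-2: `Gen p` passes to perfect central extensions with a centre of order prime to `p` (helper725)
-/

set_option autoImplicit false

namespace Cfsg.Agent.H725.Tri

open Cfsg Subgroup Cfsg.Agent.H818.Gen

section

variable {K : Type*} [Group K]

/-- the automorphism induced on the central quotient -/
noncomputable def piC (K : Type*) [Group K] : MulAut K →* MulAut (K ⧸ center K) where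
  toFun φ := QuotientGroup.congr (center K) (center K) φ (by
    have h : (center K).Characteristic := inferInstance
    exact (Subgroup.characteristic_iff_map_eq.1 h) φ)
  map_one' := by
    ext x
    induction x using QuotientGroup.induction_on with
    | _ x => rfl
  map_mul' φ ψ := by
    ext x
    induction x using QuotientGroup.induction_on with
    | _ x => rfl

theorem piC_mk (φ : MulAut K) (x : K) : piC K φ (x : K ⧸ center K) = ((φ x : K) : K ⧸ center K) := rfl

/-- an automorphism of a perfect group trivial modulo the centre is trivial -/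
theorem piC_injective (hK : Group.IsPerfect K) : Function.Injective (piC K) := by
  rw [injective_iff_map_eq_one]
  intro φ hφ
  have h1 : ∀ x : K, x⁻¹ * φ x ∈ center K := by
    intro x
    have h2 : ((φ x : K) : K ⧸ center K) = (x : K ⧸ center K) := by
      rw [← piC_mk, hφ]
      rfl
    exact QuotientGroup.eq.1 h2.symm
  let f : K →* center K :=
    { toFun := fun x => ⟨x⁻¹ * φ x, h1 x⟩
      map_one' := by
        apply Subtype.ext
        simp
      map_mul' := fun x y => by
        apply Subtype.ext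
        show (x * y)⁻¹ * φ (x * y) = x⁻¹ * φ x * (y⁻¹ * φ y)
        have h2 := (mem_center_iff.1 (h1 x)) y⁻¹
        rw [map_mul, mul_inv_rev]
        calc y⁻¹ * x⁻¹ * (φ x * φ y) = (y⁻¹ * (x⁻¹ * φ x)) * φ y := by group
          _ = (x⁻¹ * φ x * y⁻¹) * φ y := by rw [h2]
          _ = _ := by group }
  have h3 : ∀ x : K, f x = 1 := by
    intro x
    have h4 : x ∈ commutator K := by
      rw [hK.commutator_eq_top]
      exact mem_top x
    have h5 : commutator K ≤ f.ker := by
      rw [commutator_def, commutator_le]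
      rintro a - b -
      rw [MonoidHom.mem_ker, commutatorElement_def, map_mul, map_mul, map_mul, map_inv, map_inv]
      apply Subtype.ext
      have h6 := (mem_center_iff.1 (f b).2) (f a : K)
      show (f a : K) * (f b : K) * (f a : K)⁻¹ * (f b : K)⁻¹ = 1
      rw [h6]
      group
    exact MonoidHom.mem_ker.1 (h5 h4)
  ext x
  have h4 : x⁻¹ * φ x = 1 := congrArg Subtype.val (h3 x)
  rw [inv_mul_eq_one] at h4
  exact h4.symm

variable [Finite K] {p : ℕ} [hp : Fact p.Prime]

/-- fixed points lift: `F` a `p`-group of automorphisms, `p` does not divide the order of the centre -/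
theorem exists_fix (hZ : ¬ p ∣ Nat.card (center K)) {F : Subgroup (MulAut K)} (hF : IsPGroup p F) {x : K}
    (hx : ∀ φ ∈ F, piC K φ (x : K ⧸ center K) = (x : K ⧸ center K)) : ∃ y : K, y ∈ CF F ∧ x⁻¹ * y ∈ center K := by
  -- `F` acts on the coset of `x`
  let C : Type _ := {y : K // x⁻¹ * y ∈ center K}
  have hact : ∀ (φ : F) (y : C), x⁻¹ * (φ : MulAut K) y ∈ center K := by
    rintro ⟨φ, hφ⟩ ⟨y, hy⟩
    have h1 : (x : K ⧸ center K) = (y : K ⧸ center K) := QuotientGroup.eq.2 hy
    have h2 := hx φ hφ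
    rw [h1, piC_mk, ← h1] at h2
    exact QuotientGroup.eq.1 h2.symm
  let act : MulAction F C :=
    { smul := fun φ y => ⟨(φ : MulAut K) y, hact φ y⟩
      one_smul := fun y => Subtype.ext rfl
      mul_smul := fun φ ψ y => Subtype.ext rfl }
  have hC : Nat.card C = Nat.card (center K) := by
    refine Nat.card_congr
      { toFun := fun y => ⟨x⁻¹ * y.1, y.2⟩
        invFun := fun z => ⟨x * z.1, by rw [inv_mul_cancel_left]; exact z.2⟩
        left_inv := fun y => Subtype.ext (mul_inv_cancel_left x y.1)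
        right_inv := fun z => Subtype.ext (inv_mul_cancel_left x z.1) }
  have h1 := hF.card_modEq_card_fixedPoints C
  have h2 : (MulAction.fixedPoints F C).Nonempty := by
    by_contra hne
    rw [Set.not_nonempty_iff_eq_empty] at hne
    have h0 : Nat.card ↥(MulAction.fixedPoints F C) = 0 := by
      rw [hne]
      simp
    rw [h0, hC] at h1
    exact hZ ((Nat.modEq_zero_iff_dvd).1 h1)
  obtain ⟨y, hy⟩ := h2
  refine ⟨y.1, fun φ hφ => ?_, y.2⟩
  exact congrArg Subtype.val (hy ⟨φ, hφ⟩)

/-- **TRI-2** -/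
theorem gen_of_center (hK : Group.IsPerfect K) (hZ : ¬ p ∣ Nat.card ↥(Subgroup.center K))
    (h : Gen p (K ⧸ Subgroup.center K)) : Gen p K := by
  intro E hE hc
  have hinj := piC_injective hK
  -- the image of `E`
  set E' : Subgroup (MulAut (K ⧸ center K)) := E.map (piC K) with hE'
  have hEE' : IsElementaryAbelian p E' := by
    refine ⟨⟨⟨?_⟩⟩, ?_⟩
    · rintro ⟨a, a', ha', rfl⟩ ⟨b, b', hb', rfl⟩
      apply Subtype.ext
      show piC K a' * piC K b' = piC K b' * piC K a'
      rw [← map_mul, ← map_mul]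
      have := hE.1.1.1 ⟨a', ha'⟩ ⟨b', hb'⟩
      rw [show a' * b' = b' * a' from congrArg Subtype.val this]
    · rintro _ ⟨a, ha, rfl⟩
      rw [← map_pow, hE.2 a ha, map_one]
  have hcard : Nat.card E' = Nat.card E := Subgroup.card_map_of_injective hinj
  have h1 := h E' hEE' (by rw [hcard]; exact hc)
  set M : Subgroup K := Gam p E with hM
  -- `M` covers the quotient
  have h2 : Gam p E' ≤ M.map (QuotientGroup.mk' (center K)) := by
    refine Gam_le fun F' hF' hi => ?_
    intro g hg
    obtain ⟨x, rfl⟩ := QuotientGroup.mk_surjective g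
    set F : Subgroup (MulAut K) := F'.comap (piC K) ⊓ E with hF
    have hFE : F.map (piC K) = F' := by
      apply le_antisymm
      · rintro _ ⟨a, ha, rfl⟩
        exact ha.1
      · intro a ha
        obtain ⟨b, hb, rfl⟩ := hF' ha
        exact ⟨b, ⟨ha, hb⟩, rfl⟩
    have hFi : F.relIndex E = p := by
      rw [← hi, ← hFE, hE']
      rw [Subgroup.relIndex_map_map_of_injective _ _ hinj]
    have hFp : IsPGroup p F := elab_isPGroup (elab_mono inf_le_right hE)
    obtain ⟨y, hy1, hy2⟩ := exists_fix hZ hFp (x := x) fun φ hφ => hg _ hφ.1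
    refine ⟨y, CF_le_Gam' inf_le_right hFi hy1, ?_⟩
    exact (QuotientGroup.eq.2 hy2).symm
  rw [h1, top_le_iff] at h2
  -- `K = M Z`
  have h3 : ∀ x : K, ∃ m ∈ M, ∃ z ∈ center K, x = m * z := by
    intro x
    have h4 : (x : K ⧸ center K) ∈ M.map (QuotientGroup.mk' (center K)) := by
      rw [h2]
      exact mem_top _
    obtain ⟨m, hm, hmx⟩ := h4
    exact ⟨m, hm, m⁻¹ * x, QuotientGroup.eq.1 hmx, by group⟩
  rw [← top_le_iff, ← hK.commutator_eq_top, commutator_def, commutator_le]
  rintro a - b -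
  obtain ⟨m, hm, z, hz, rfl⟩ := h3 a
  obtain ⟨n, hn, w, hw, rfl⟩ := h3 b
  have hz' := mem_center_iff.1 hz
  have hw' := mem_center_iff.1 hw
  have h5 : m * z * (n * w) * (m * z)⁻¹ * (n * w)⁻¹ = m * n * m⁻¹ * n⁻¹ := by
    rw [mul_inv_rev, mul_inv_rev]
    calc m * z * (n * w) * (z⁻¹ * m⁻¹) * (w⁻¹ * n⁻¹) = m * (z * (n * w)) * z⁻¹ * m⁻¹ * w⁻¹ * n⁻¹ := by group
      _ = m * (n * w * z) * z⁻¹ * m⁻¹ * w⁻¹ * n⁻¹ := by rw [hz' (n * w)]
      _ = m * n * (w * m⁻¹) * w⁻¹ * n⁻¹ := by group
      _ = m * n * (m⁻¹ * w) * w⁻¹ * n⁻¹ := by rw [hw' m⁻¹]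
      _ = _ := by group
  rw [commutatorElement_def, h5]
  exact Subgroup.mul_mem _ (Subgroup.mul_mem _ (Subgroup.mul_mem _ hm hn) (inv_mem hm)) (inv_mem hn)

/-- quasisimple groups -/
theorem gen_of_quasisimple (hK : IsQuasisimple K) (hZ : ¬ p ∣ Nat.card ↥(Subgroup.center K))
    (h : Gen p (K ⧸ Subgroup.center K)) : Gen p K :=
  gen_of_center hK.1 hZ h

end

end Cfsg.Agent.H725.Tri
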