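import Cfsg.Agent.H725.Tri.Center
import Cfsg.Agent.SignalizersComponents.SLQuasisimple
import Cfsg.Agent.GenPsu.Psu

/-!
# S2187, TRI-2: corollaries for `SL_n`, `SU_n` (helper725)
-/

set_option autoImplicit false

namespace Cfsg.Agent.H725.Tri

open Cfsg Subgroup Matrix Cfsg.Agent.H818.Gen

section SL

variable {F : Type*} [Field F] [Fintype F]

theorem quasi_sl_two (h4 : 4 ≤ Fintype.card F) : IsQuasisimple (SpecialLinearGroup (Fin 2) F) :=
  SignalizersComponents.SLQuasisimple.isQuasisimple_two (by rw [Nat.card_eq_fintype_card]; exact h4)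

/-- the centre of `SL_2(F)` has order prime to odd primes -/
theorem center_sl_two {p : ℕ} [hp : Fact p.Prime] (hp2 : p ≠ 2) :
    ¬ p ∣ Nat.card ↥(Subgroup.center (SpecialLinearGroup (Fin 2) F)) := by
  intro hd
  obtain ⟨z, hz⟩ := exists_prime_orderOf_dvd_card' (G := ↥(Subgroup.center (SpecialLinearGroup (Fin 2) F))) p hd
  obtain ⟨r, hr, hrz⟩ := Matrix.SpecialLinearGroup.mem_center_iff.1 z.2
  have h1 : (z : SpecialLinearGroup (Fin 2) F) ^ 2 = 1 := by
    apply Subtype.ext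
    rw [Matrix.SpecialLinearGroup.coe_pow, ← hrz, Matrix.SpecialLinearGroup.coe_one, ← map_pow]
    have h2 : r ^ 2 = 1 := by simpa using hr
    rw [h2, map_one]
  have h3 : orderOf (z : SpecialLinearGroup (Fin 2) F) ∣ 2 := orderOf_dvd_of_pow_eq_one h1
  rw [Subgroup.orderOf_coe, hz] at h3
  exact hp2 ((Nat.prime_dvd_prime_iff_eq hp.out Nat.prime_two).1 h3)

theorem gen_sl_two {p : ℕ} [hp : Fact p.Prime] (hp2 : p ≠ 2) (h4 : 4 ≤ Fintype.card F)
    (h : Gen p (ProjectiveSpecialLinearGroup (Fin 2) F)) : Gen p (SpecialLinearGroup (Fin 2) F) :=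
  gen_of_center (quasi_sl_two h4).1 (center_sl_two hp2) h

theorem quasi_sl {n : ℕ} (hn : 3 ≤ n) : IsQuasisimple (SpecialLinearGroup (Fin n) F) :=
  SignalizersComponents.SLQuasisimple.isQuasisimple_of_three_le (by simpa using hn)

theorem gen_sl {n : ℕ} (hn : 3 ≤ n) {p : ℕ} [hp : Fact p.Prime]
    (hZ : ¬ p ∣ Nat.card ↥(Subgroup.center (SpecialLinearGroup (Fin n) F)))
    (h : Gen p (ProjectiveSpecialLinearGroup (Fin n) F)) : Gen p (SpecialLinearGroup (Fin n) F) :=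
  gen_of_center (quasi_sl hn).1 hZ h

end SL

section SU

variable {F : Type} [Field F] [Fintype F] {q : ℕ}

theorem gen_su {n : ℕ} (hF : Fintype.card F = q ^ 2) (hn : 3 ≤ n) (h32 : ¬ (n = 3 ∧ q = 2)) {p : ℕ} [hp : Fact p.Prime]
    (hZ : ¬ p ∣ Nat.card ↥(Subgroup.center ↥(SU n F q))) (h : Gen p (PSU n F q)) : Gen p ↥(SU n F q) :=
  gen_of_center (GenPsu.quasi hF hn h32).1 hZ h

end SU

end Cfsg.Agent.H725.Tri
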